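import Mathlib

set_option autoImplicit false

namespace Cfsg.Agent.Helper25

open Subgroup

/-- Hypotheses of the abstract Brauer–Suzuki–Wall theorem. -/
structure BswHyp {G : Type*} [Group G] (t s : G) (K : Subgroup G) : Prop where
  ht : orderOf t = 2
  hKab : ∀ x ∈ K, ∀ y ∈ K, x * y = y * x
  htK : t ∈ K
  hs : orderOf s = 2
  hsK : s ∉ K
  hH : K ⊔ zpowers s = centralizer ({t} : Set G)
  hCK : K ⊓ centralizer ({s} : Set G) = zpowers t
  hinv : ∀ x ∈ K, s * x * s⁻¹ = x⁻¹
  hTI : ∀ g : G, g ∉ centralizer ({t} : Set G) →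
    K ⊓ K.map (MulAut.conj g).toMonoidHom = ⊥
  hconj : ∀ x y : G, orderOf x = 2 → orderOf y = 2 → IsConj x y

/-- The set of elements conjugate into `K`. -/
def bswCl {G : Type*} [Group G] (K : Subgroup G) : Set G := {g | ∃ x : G, x * g * x⁻¹ ∈ K}

/-- The number of ways of writing `g` as a product of two involutions. -/
noncomputable def bswA {G : Type*} [Group G] (g : G) : ℕ :=
  Nat.card {p : G × G // orderOf p.1 = 2 ∧ orderOf p.2 = 2 ∧ p.1 * p.2 = g}

section basics

variable {G : Type*} [Group G] {t s : G} {K : Subgroup G}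

theorem bsw_sq_of_order_two {u : G} (hu : orderOf u = 2) : u * u = 1 := by
  have := pow_orderOf_eq_one u
  rw [hu, pow_two] at this
  exact this

theorem bsw_inv_of_order_two {u : G} (hu : orderOf u = 2) : u⁻¹ = u :=
  inv_eq_of_mul_eq_one_left (bsw_sq_of_order_two hu)

theorem bsw_ne_one_of_order_two {u : G} (hu : orderOf u = 2) : u ≠ 1 := by
  rintro rfl
  simp at hu

theorem bsw_order_two_of_sq {u : G} (h1 : u ≠ 1) (h2 : u * u = 1) : orderOf u = 2 := by
  have : Fact (Nat.Prime 2) := ⟨Nat.prime_two⟩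
  exact orderOf_eq_prime (by rw [pow_two]; exact h2) h1

theorem bsw_order_two_conj {u : G} (x : G) (hu : orderOf u = 2) : orderOf (x * u * x⁻¹) = 2 := by
  apply bsw_order_two_of_sq
  · intro h
    apply bsw_ne_one_of_order_two hu
    have : u = x⁻¹ * (x * u * x⁻¹) * x := by group
    rw [this, h]; group
  · have : x * u * x⁻¹ * (x * u * x⁻¹) = x * (u * u) * x⁻¹ := by group
    rw [this, bsw_sq_of_order_two hu]; group

namespace BswHyp

variable (h : BswHyp t s K)
include h

theorem s_sq : s * s = 1 := bsw_sq_of_order_two h.hs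

theorem s_inv : s⁻¹ = s := bsw_inv_of_order_two h.hs

theorem t_sq : t * t = 1 := bsw_sq_of_order_two h.ht

theorem t_inv : t⁻¹ = t := bsw_inv_of_order_two h.ht

theorem hinv' {x : G} (hx : x ∈ K) : s * x * s = x⁻¹ := by
  have := h.hinv x hx
  rwa [h.s_inv] at this

/-- `C(t) = K ∪ K s`. -/
theorem mem_cent_t (x : G) : x ∈ centralizer ({t} : Set G) ↔ x ∈ K ∨ x * s ∈ K := by
  rw [← h.hH]
  constructor
  · intro hx
    let M : Subgroup G :=
      { carrier := {x | x ∈ K ∨ x * s ∈ K}
        one_mem' := Or.inl K.one_mem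
        mul_mem' := by
          rintro a b (ha | ha) (hb | hb)
          · exact Or.inl (K.mul_mem ha hb)
          · right
            have : a * b * s = a * (b * s) := by group
            rw [this]; exact K.mul_mem ha hb
          · right
            have : a * b * s = a * s * (s * b * s)  := by
              have h1 := h.s_sq
              calc a * b * s = a * (1 * b) * s := by group
                _ = a * (s * s * b) * s := by rw [h1]
                _ = a * s * (s * b * s) := by group
            rw [this, h.hinv' hb]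
            exact K.mul_mem ha (K.inv_mem hb)
          · left
            have : a * b = a * s * (s * (b * s) * s) := by
              have h1 := h.s_sq
              calc a * b = a * (1 * b * 1) := by group
                _ = a * (s * s * b * (s * s)) := by rw [h1]
                _ = a * s * (s * (b * s) * s) := by group
            rw [this, h.hinv' hb]
            exact K.mul_mem ha (K.inv_mem hb)
        inv_mem' := by
          rintro a (ha | ha)
          · exact Or.inl (K.inv_mem ha)
          · right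
            have : a⁻¹ * s = s * (a * s)⁻¹ * s := by
              have h1 := h.s_sq
              calc a⁻¹ * s = 1 * a⁻¹ * s := by group
                _ = s * s * a⁻¹ * s := by rw [h1]
                _ = s * (s⁻¹)⁻¹ * a⁻¹ * s := by rw [inv_inv]
                _ = s * (a * s⁻¹)⁻¹ * s := by group
                _ = s * (a * s)⁻¹ * s := by rw [h.s_inv]
            rw [this, h.hinv' (K.inv_mem ha), inv_inv]
            exact ha }
    have hle : K ⊔ zpowers s ≤ M := by
      apply sup_le
      · intro a ha; exact Or.inl ha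
      · rw [zpowers_le]
        right
        show s * s ∈ K
        rw [h.s_sq]; exact K.one_mem
    exact hle hx
  · rintro (hx | hx)
    · exact (le_sup_left : K ≤ K ⊔ zpowers s) hx
    · have : x = x * s * s := by
        rw [mul_assoc, h.s_sq, mul_one]
      rw [this]
      exact (K ⊔ zpowers s).mul_mem ((le_sup_left : K ≤ K ⊔ zpowers s) hx)
        ((le_sup_right : zpowers s ≤ K ⊔ zpowers s) (mem_zpowers s))

theorem K_le_cent_t : K ≤ centralizer ({t} : Set G) := by
  intro x hx; exact (h.mem_cent_t x).2 (Or.inl hx)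

theorem s_mem_cent_t : s ∈ centralizer ({t} : Set G) := by
  rw [h.mem_cent_t]; right; rw [h.s_sq]; exact K.one_mem

/-- Elements of `C(t) ∖ K` are involutions. -/
theorem order_two_of_cent_not_mem {x : G} (hx : x ∈ centralizer ({t} : Set G)) (hxK : x ∉ K) :
    orderOf x = 2 := by
  rcases (h.mem_cent_t x).1 hx with hx | hx
  · exact absurd hx hxK
  · apply bsw_order_two_of_sq
    · rintro rfl; exact hxK K.one_mem
    · have h1 := h.hinv' hx
      have : x * x = x * s * (s * (x * s) * s) := by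
        have h1 := h.s_sq
        calc x * x = x * (1 * x * 1) := by group
          _ = x * (s * s * x * (s * s)) := by rw [h1]
          _ = x * s * (s * (x * s) * s) := by group
      rw [this, h1]; group

/-- `t` is the only involution of `K`. -/
theorem eq_t_of_order_two {x : G} (hx : x ∈ K) (h2 : orderOf x = 2) : x = t := by
  have hmem : x ∈ K ⊓ centralizer ({s} : Set G) := by
    refine Subgroup.mem_inf.2 ⟨hx, ?_⟩
    rw [mem_centralizer_iff]
    intro y hy
    rw [Set.mem_singleton_iff] at hy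
    subst hy
    have h1 := h.hinv x hx
    rw [bsw_inv_of_order_two h2] at h1
    calc y * x = y * x * y⁻¹ * y := by group
      _ = x * y := by rw [h1]
  rw [h.hCK, mem_zpowers_iff] at hmem
  obtain ⟨k, hk⟩ := hmem
  rcases Int.emod_two_eq_zero_or_one k with hk2 | hk2
  · exfalso
    apply bsw_ne_one_of_order_two h2
    rw [← hk]
    have : k = 2 * (k / 2) := by omega
    rw [this, zpow_mul, zpow_ofNat, pow_two, h.t_sq, one_zpow]
  · rw [← hk]
    have : k = 2 * (k / 2) + 1 := by omega
    rw [this, zpow_add, zpow_mul, zpow_ofNat, pow_two, h.t_sq, one_zpow, one_mul, zpow_one]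

theorem mem_cent_t_of_inter {g x : G} (hx : x ∈ K) (hx1 : x ≠ 1) (hgx : g⁻¹ * x * g ∈ K) :
    g ∈ centralizer ({t} : Set G) := by
  by_contra hg
  have := h.hTI g hg
  have hmem : x ∈ K ⊓ K.map (MulAut.conj g).toMonoidHom := by
    refine Subgroup.mem_inf.2 ⟨hx, ?_⟩
    rw [mem_map]
    refine ⟨g⁻¹ * x * g, hgx, ?_⟩
    simp [MulAut.conj_apply]
    group
  rw [this, mem_bot] at hmem
  exact hx1 hmem

theorem mem_cent_t_of_inter' {g x : G} (hx : x ∈ K) (hx1 : x ≠ 1) (hgx : g * x * g⁻¹ ∈ K) :
    g ∈ centralizer ({t} : Set G) := by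
  have := h.mem_cent_t_of_inter (g := g⁻¹) hx hx1 (by simpa using hgx)
  simpa using (centralizer ({t} : Set G)).inv_mem this

/-- Centralizers of non-identity elements of `K` lie in `C(t)`. -/
theorem cent_le_cent_t {x : G} (hx : x ∈ K) (hx1 : x ≠ 1) :
    centralizer ({x} : Set G) ≤ centralizer ({t} : Set G) := by
  intro g hg
  rw [mem_centralizer_iff] at hg
  have hg' := hg x rfl
  apply h.mem_cent_t_of_inter' hx hx1
  have : g * x * g⁻¹ = x := by rw [← hg']; group
  rw [this]; exact hx

/-- For `x ∈ K ∖ {1, t}`, `C(x) = K`. -/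
theorem cent_eq_K {x : G} (hx : x ∈ K) (hx1 : x ≠ 1) (hxt : x ≠ t) :
    centralizer ({x} : Set G) = K := by
  apply le_antisymm
  · intro g hg
    have hgt := h.cent_le_cent_t hx hx1 hg
    rcases (h.mem_cent_t g).1 hgt with hgK | hgs
    · exact hgK
    · exfalso
      rw [mem_centralizer_iff] at hg
      have hg' := hg x rfl
      -- g = a s, so g x g⁻¹ = x⁻¹
      have h1 : g * x * g⁻¹ = x⁻¹ := by
        have e1 : g * x * g⁻¹ = (g * s) * (s * x * s) * (g * s)⁻¹ := by
          have h1 := h.s_sq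
          calc g * x * g⁻¹ = g * (1 * x * 1) * g⁻¹ := by group
            _ = g * (s * s * x * (s * s)) * g⁻¹ := by rw [h1]
            _ = (g * s) * (s * x * s) * (s * g⁻¹) := by group
            _ = (g * s) * (s * x * s) * (s⁻¹ * g⁻¹) := by rw [h.s_inv]
            _ = (g * s) * (s * x * s) * (g * s)⁻¹ := by group
        rw [e1, h.hinv' hx]
        have := h.hKab _ hgs _ (K.inv_mem hx)
        rw [this]; group
      have h2 : g * x * g⁻¹ = x := by rw [← hg']; group
      rw [h2] at h1
      have hsq : x * x = 1 := by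
        nth_rewrite 1 [h1]; group
      exact hxt (h.eq_t_of_order_two hx (bsw_order_two_of_sq hx1 hsq))
  · intro g hg
    rw [mem_centralizer_iff]
    intro y hy
    rw [Set.mem_singleton_iff] at hy
    subst hy
    exact h.hKab _ hx _ hg

/-- Conjugation by an element of `C(t)` preserves every subgroup of `K`. -/
theorem conj_mem_of_cent_t {X : Subgroup G} (hX : X ≤ K) {g x : G}
    (hg : g ∈ centralizer ({t} : Set G)) (hx : x ∈ X) : g * x * g⁻¹ ∈ X := by
  rcases (h.mem_cent_t g).1 hg with hgK | hgs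
  · have := h.hKab _ hgK _ (hX hx)
    rw [this]; simpa using hx
  · have e1 : g * x * g⁻¹ = (g * s) * (s * x * s) * (g * s)⁻¹ := by
      have h1 := h.s_sq
      calc g * x * g⁻¹ = g * (1 * x * 1) * g⁻¹ := by group
        _ = g * (s * s * x * (s * s)) * g⁻¹ := by rw [h1]
        _ = (g * s) * (s * x * s) * (s * g⁻¹) := by group
        _ = (g * s) * (s * x * s) * (s⁻¹ * g⁻¹) := by rw [h.s_inv]
        _ = (g * s) * (s * x * s) * (g * s)⁻¹ := by group
    rw [e1, h.hinv' (hX hx)]
    have := h.hKab _ hgs _ (K.inv_mem (hX hx))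
    rw [this]
    have e2 : x⁻¹ * (g * s) * (g * s)⁻¹ = x⁻¹ := by group
    rw [e2]
    exact X.inv_mem hx

/-- The normalizer of a non-trivial subgroup of `K` is `C(t)`. -/
theorem normalizer_eq {X : Subgroup G} (hX : X ≤ K) (hX1 : X ≠ ⊥) :
    normalizer (X : Set G) = centralizer ({t} : Set G) := by
  apply le_antisymm
  · intro g hg
    rw [mem_normalizer_iff] at hg
    obtain ⟨⟨x, hx⟩, hx1⟩ := (Subgroup.ne_bot_iff_exists_ne_one (H := X)).1 hX1
    have hx1' : x ≠ 1 := fun e => hx1 (Subtype.ext e)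
    exact h.mem_cent_t_of_inter' (hX hx) hx1' (hX ((hg x).1 hx))
  · intro g hg
    rw [mem_normalizer_iff]
    intro x
    constructor
    · intro hx; exact h.conj_mem_of_cent_t hX hg hx
    · intro hx
      have := h.conj_mem_of_cent_t hX ((centralizer ({t} : Set G)).inv_mem hg) hx
      have e : g⁻¹ * (g * x * g⁻¹) * g⁻¹⁻¹ = x := by group
      rwa [e] at this

end BswHyp

theorem bswCl_conj (K : Subgroup G) (g y : G) : y * g * y⁻¹ ∈ bswCl K ↔ g ∈ bswCl K := by
  constructor
  · rintro ⟨x, hx⟩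
    refine ⟨x * y, ?_⟩
    have : x * y * g * (x * y)⁻¹ = x * (y * g * y⁻¹) * x⁻¹ := by group
    rw [this]; exact hx
  · rintro ⟨x, hx⟩
    refine ⟨x * y⁻¹, ?_⟩
    have : x * y⁻¹ * (y * g * y⁻¹) * (x * y⁻¹)⁻¹ = x * g * x⁻¹ := by group
    rw [this]; exact hx

theorem mem_bswCl_of_mem {g : G} (hg : g ∈ K) : g ∈ bswCl K := ⟨1, by simpa using hg⟩

theorem bswA_conj (g y : G) : bswA (y * g * y⁻¹) = bswA g := by
  unfold bswA
  apply Nat.card_congr
  refine ⟨fun p => ⟨(y⁻¹ * p.1.1 * y, y⁻¹ * p.1.2 * y), ?_, ?_, ?_⟩,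
    fun p => ⟨(y * p.1.1 * y⁻¹, y * p.1.2 * y⁻¹), ?_, ?_, ?_⟩, ?_, ?_⟩
  · have := bsw_order_two_conj y⁻¹ p.2.1
    rwa [inv_inv] at this
  · have := bsw_order_two_conj y⁻¹ p.2.2.1
    rwa [inv_inv] at this
  · have := p.2.2.2
    show y⁻¹ * p.1.1 * y * (y⁻¹ * p.1.2 * y) = g
    have e : y⁻¹ * p.1.1 * y * (y⁻¹ * p.1.2 * y) = y⁻¹ * (p.1.1 * p.1.2) * y := by group
    rw [e, this]; group
  · exact bsw_order_two_conj y p.2.1
  · exact bsw_order_two_conj y p.2.2.1
  · have := p.2.2.2
    show y * p.1.1 * y⁻¹ * (y * p.1.2 * y⁻¹) = y * g * y⁻¹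
    have e : y * p.1.1 * y⁻¹ * (y * p.1.2 * y⁻¹) = y * (p.1.1 * p.1.2) * y⁻¹ := by group
    rw [e, this]
  · rintro ⟨⟨a, b⟩, hp⟩
    apply Subtype.ext
    show (y * (y⁻¹ * a * y) * y⁻¹, y * (y⁻¹ * b * y) * y⁻¹) = (a, b)
    congr 1 <;> group
  · rintro ⟨⟨a, b⟩, hp⟩
    apply Subtype.ext
    show (y⁻¹ * (y * a * y⁻¹) * y, y⁻¹ * (y * b * y⁻¹) * y) = (a, b)
    congr 1 <;> group

theorem bswA_pos_iff [Finite G] (g : G) :
    0 < bswA g ↔ ∃ u v : G, orderOf u = 2 ∧ orderOf v = 2 ∧ u * v = g := by
  unfold bswA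
  rw [Nat.card_pos_iff]
  constructor
  · rintro ⟨⟨⟨⟨u, v⟩, hp⟩⟩, _⟩
    exact ⟨u, v, hp⟩
  · rintro ⟨u, v, hp⟩
    exact ⟨⟨⟨(u, v), hp⟩⟩, inferInstance⟩

namespace BswHyp

variable (h : BswHyp t s K)
include h

/-- Involutions are conjugate into `K`. -/
theorem order_two_mem_cl {u : G} (hu : orderOf u = 2) : u ∈ bswCl K := by
  obtain ⟨c, hc⟩ := isConj_iff.1 (h.hconj u t hu h.ht)
  exact ⟨c, by rw [hc]; exact h.htK⟩

/-- Centralizers of involutions consist of elements conjugate into `K`. -/
theorem cent_inv_subset_cl {u g : G} (hu : orderOf u = 2)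
    (hg : g ∈ centralizer ({u} : Set G)) : g ∈ bswCl K := by
  obtain ⟨c, hc⟩ := isConj_iff.1 (h.hconj u t hu h.ht)
  rw [mem_centralizer_iff] at hg
  have hg' := hg u rfl
  have hct : c * g * c⁻¹ ∈ centralizer ({t} : Set G) := by
    rw [mem_centralizer_iff]
    intro y hy
    rw [Set.mem_singleton_iff] at hy
    subst hy
    rw [← hc]
    calc c * u * c⁻¹ * (c * g * c⁻¹) = c * (u * g) * c⁻¹ := by group
      _ = c * (g * u) * c⁻¹ := by rw [hg']
      _ = c * g * c⁻¹ * (c * u * c⁻¹) := by group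
  by_cases hK : c * g * c⁻¹ ∈ K
  · exact ⟨c, hK⟩
  · exact (bswCl_conj K g c).1 (h.order_two_mem_cl (h.order_two_of_cent_not_mem hct hK))

/-- For `c` conjugate into `K`, not an involution and `≠ 1`: `C(c)` is a conjugate of `K`. -/
theorem cent_of_cl {c : G} (hc : c ∈ bswCl K) (hc1 : c ≠ 1) (hc2 : orderOf c ≠ 2) :
    ∃ x : G, x * c * x⁻¹ ∈ K ∧ ∀ g : G, g ∈ centralizer ({c} : Set G) ↔ x * g * x⁻¹ ∈ K := by
  obtain ⟨x, hx⟩ := hc
  refine ⟨x, hx, ?_⟩
  have hx1 : x * c * x⁻¹ ≠ 1 := by
    intro e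
    apply hc1
    have : c = x⁻¹ * (x * c * x⁻¹) * x := by group
    rw [this, e]; group
  have hxt : x * c * x⁻¹ ≠ t := by
    intro e
    apply hc2
    have : c = x⁻¹ * (x * c * x⁻¹) * x⁻¹⁻¹ := by group
    rw [this, e]
    exact bsw_order_two_conj x⁻¹ h.ht
  have hC := h.cent_eq_K hx hx1 hxt
  intro g
  rw [← hC, mem_centralizer_iff, mem_centralizer_iff]
  constructor
  · intro hg y hy
    rw [Set.mem_singleton_iff] at hy
    subst hy
    have hg' := hg c rfl
    calc x * c * x⁻¹ * (x * g * x⁻¹) = x * (c * g) * x⁻¹ := by group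
      _ = x * (g * c) * x⁻¹ := by rw [hg']
      _ = x * g * x⁻¹ * (x * c * x⁻¹) := by group
  · intro hg y hy
    rw [Set.mem_singleton_iff] at hy
    subst hy
    have hg' := hg (x * y * x⁻¹) rfl
    calc y * g = x⁻¹ * (x * y * x⁻¹ * (x * g * x⁻¹)) * x := by group
      _ = x⁻¹ * (x * g * x⁻¹ * (x * y * x⁻¹)) * x := by rw [hg']
      _ = g * y := by group

theorem pow_card_of_cl [Finite G] {c : G} (hc : c ∈ bswCl K) : c ^ Nat.card K = 1 := by
  obtain ⟨x, hx⟩ := hc
  have h1 : (⟨x * c * x⁻¹, hx⟩ : K) ^ Nat.card K = 1 := pow_card_eq_one'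
  have h2 : (x * c * x⁻¹) ^ Nat.card K = 1 := by
    have := congrArg (fun z : K => (z : G)) h1
    simp only [Subgroup.coe_pow, Subgroup.coe_one] at this
    exact this
  rw [conj_pow] at h2
  have : c ^ Nat.card K = x⁻¹ * (x * c ^ Nat.card K * x⁻¹) * x := by group
  rw [this, h2]; group

/-- Every non-identity element of `K` is a product of two involutions in exactly `|K|` ways. -/
theorem bswA_of_mem_K {y : G} (hy : y ∈ K) (hy1 : y ≠ 1) : bswA y = Nat.card K := by
  unfold bswA
  symm
  have has : ∀ a ∈ K, a * s ∈ centralizer ({t} : Set G) ∧ a * s ∉ K := by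
    intro a ha
    refine ⟨(h.mem_cent_t _).2 (Or.inr ?_), ?_⟩
    · rw [mul_assoc, h.s_sq, mul_one]; exact ha
    · intro h'
      apply h.hsK
      have : s = a⁻¹ * (a * s) := by group
      rw [this]; exact K.mul_mem (K.inv_mem ha) h'
  have has2 : ∀ a ∈ K, orderOf (a * s) = 2 := fun a ha =>
    h.order_two_of_cent_not_mem (has a ha).1 (has a ha).2
  have hasy : ∀ a ∈ K, orderOf (a * s * y) = 2 := by
    intro a ha
    apply h.order_two_of_cent_not_mem
    · exact (centralizer ({t} : Set G)).mul_mem (has a ha).1 (h.K_le_cent_t hy)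
    · intro h'
      apply (has a ha).2
      have : a * s = a * s * y * y⁻¹ := by group
      rw [this]; exact K.mul_mem h' (K.inv_mem hy)
  apply Nat.card_congr
  refine Equiv.ofBijective (fun a : K => ⟨((a : G) * s, (a : G) * s * y),
    has2 a a.2, hasy a a.2, ?_⟩) ⟨?_, ?_⟩
  · show (a : G) * s * ((a : G) * s * y) = y
    have := bsw_sq_of_order_two (has2 a a.2)
    calc (a : G) * s * ((a : G) * s * y) = ((a : G) * s * ((a : G) * s)) * y := by group
      _ = y := by rw [this, one_mul]
  · intro a b hab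
    have := congrArg (fun p => p.1.1) hab
    simp only [mul_left_inj] at this
    exact Subtype.ext this
  · rintro ⟨⟨u, v⟩, hu, hv, huv⟩
    simp only at hu hv huv
    have huy : u * y * u⁻¹ = y⁻¹ := by
      rw [← huv, bsw_inv_of_order_two hu]
      have e : u * (u * v) * u = (u * u) * v * u := by group
      rw [e, bsw_sq_of_order_two hu, one_mul]
      have e2 : (u * v)⁻¹ = v⁻¹ * u⁻¹ := by group
      rw [e2, bsw_inv_of_order_two hu, bsw_inv_of_order_two hv]
    have hut : u ∈ centralizer ({t} : Set G) :=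
      h.mem_cent_t_of_inter' hy hy1 (by rw [huy]; exact K.inv_mem hy)
    have huK : u ∉ K := by
      intro huK
      have e := h.hKab _ huK _ hy
      have e2 : u * y * u⁻¹ = y := by rw [e]; group
      rw [e2] at huy
      have hsq : y * y = 1 := by nth_rewrite 1 [huy]; group
      have hyt := h.eq_t_of_order_two hy (bsw_order_two_of_sq hy1 hsq)
      have hu_t := h.eq_t_of_order_two huK hu
      apply bsw_ne_one_of_order_two hv
      have : v = u⁻¹ * (u * v) := by group
      rw [this, huv, hyt, hu_t]; group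
    have hus : u * s ∈ K := by
      rcases (h.mem_cent_t u).1 hut with h' | h'
      · exact absurd h' huK
      · exact h'
    refine ⟨⟨u * s, hus⟩, ?_⟩
    apply Subtype.ext
    show (u * s * s, u * s * s * y) = (u, v)
    have e1 : u * s * s = u := by rw [mul_assoc, h.s_sq, mul_one]
    rw [e1]
    congr 1
    rw [← huv]
    have e : u * (u * v) = (u * u) * v := by group
    rw [e, bsw_sq_of_order_two hu, one_mul]

end BswHyp

end basics

end Cfsg.Agent.Helper25
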