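import Cfsg.Agent.Helper25.Bsw1

set_option autoImplicit false

/-! Interface definitions for the pieces of the Brauer–Suzuki–Wall proof (S3282). -/

namespace Cfsg.Agent.Helper25

open Subgroup

/-- The conclusion of the abstract Brauer–Suzuki–Wall theorem. -/
def BswGoal (G : Type*) [Group G] : Prop :=
  ∃ Q D : Subgroup G, 2 * Nat.card G = Nat.card ↥Q * (Nat.card ↥Q + 1) * (Nat.card ↥Q - 1) ∧
    (∀ x ∈ Q, x ≠ 1 → Subgroup.centralizer ({x} : Set G) = Q) ∧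
    IsMulCommutative ↥D ∧ 2 * Nat.card ↥D + 1 = Nat.card ↥Q ∧ Q ⊓ D = ⊥ ∧
    Subgroup.normalizer (Q : Set G) = Q ⊔ D ∧
    ∀ X : Subgroup G, X ≤ D → X ≠ ⊥ →
      Subgroup.normalizer (X : Set G) = Subgroup.normalizer (D : Set G) ∧
      ∃ u : G, orderOf u = 2 ∧ u ∉ D ∧ (∀ d ∈ D, u * d * u⁻¹ = d⁻¹) ∧
        Subgroup.normalizer (D : Set G) = D ⊔ Subgroup.zpowers u

/-- Structure of the centralizer of a "real" element outside the conjugates of `K`. -/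
def BswF5 {G : Type*} [Group G] (K : Subgroup G) : Prop :=
  ∀ g : G, g ∉ bswCl K → 0 < bswA g →
    (∀ x ∈ centralizer ({g} : Set G), ∀ y ∈ centralizer ({g} : Set G), x * y = y * x) ∧
    (∀ y ∈ centralizer ({g} : Set G), y ≠ 1 →
        y ∉ bswCl K ∧ centralizer ({y} : Set G) = centralizer ({g} : Set G) ∧
        bswA y = Nat.card (centralizer ({g} : Set G))) ∧
    ∃ (u x : G) (L : Subgroup G), orderOf u = 2 ∧
      (∀ y ∈ centralizer ({g} : Set G), u * y * u⁻¹ = y⁻¹) ∧ u ∈ L ∧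
      L ≤ K.map (MulAut.conj x).toMonoidHom ∧
      centralizer ({g} : Set G) ⊓ L = ⊥ ∧
      normalizer ((centralizer ({g} : Set G) : Subgroup G) : Set G) =
        centralizer ({g} : Set G) ⊔ L ∧
      Nat.card L ∣ Nat.card (centralizer ({g} : Set G)) - 1

/-- Output of the character theory, case `q = 2|K| + 1`. -/
def BswOutPlus {G : Type*} [Group G] (K : Subgroup G) (q : ℕ) : Prop :=
  q = 2 * Nat.card K + 1 ∧ 2 * Nat.card G = q * (q + 1) * (q - 1) ∧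
  (∀ g : G, g ∉ bswCl K → bswA g = q ∨ 2 * bswA g = q + 1) ∧
  Nat.card {g : G // g ∉ bswCl K ∧ bswA g = q} = q ^ 2 - 1

/-- Output of the character theory, case `q = 2|K| - 1`. -/
def BswOutMinus {G : Type*} [Group G] (K : Subgroup G) (q : ℕ) : Prop :=
  q + 1 = 2 * Nat.card K ∧ 2 * Nat.card G = q * (q + 1) * (q - 1) ∧
  (∀ g : G, g ∉ bswCl K → bswA g = 0 ∨ 2 * bswA g = q - 1) ∧
  Nat.card {g : G // g ∉ bswCl K ∧ bswA g = 0} = q ^ 2 - 1 ∧
  ∀ Y : Subgroup G, (∀ y ∈ Y, y ≠ 1 → y ∉ bswCl K ∧ bswA y = 0) → Nat.card Y ∣ q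

/-- Structure of the set `Z` of non-real elements outside the conjugates of `K`
(case `q = 2|K| - 1`): they are the non-identity `p`-elements. -/
def BswMinusZ {G : Type*} [Group G] (K : Subgroup G) (q p : ℕ) : Prop :=
  p.Prime ∧ (∃ a : ℕ, q = p ^ a) ∧
  (∀ g : G, (g ∉ bswCl K ∧ bswA g = 0) ↔ (g ≠ 1 ∧ g ^ q = 1)) ∧
  ∀ z : G, z ≠ 1 → z ^ q = 1 → Nat.card (centralizer ({z} : Set G)) = q

/-- Hypotheses of the abstract "Sylow `p`-subgroups are TI" lemma. -/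
def BswTIHyp (G : Type*) [Group G] (q p : ℕ) : Prop :=
  (∀ w z : G, orderOf w = 2 → z ≠ 1 → z ^ q = 1 → w * z * w⁻¹ ≠ z ∧ w * z * w⁻¹ ≠ z⁻¹) ∧
  ∀ x : G, x ≠ 1 → Odd (orderOf x) → (orderOf x).Coprime p →
    ∃ A : Subgroup G, x ∈ A ∧ (∀ a ∈ A, ∀ b ∈ A, a * b = b * a) ∧
      (∀ y ∈ A, y ≠ 1 → Odd (orderOf y) → centralizer ({y} : Set G) = A) ∧
      ∀ g ∈ normalizer (A : Set G), Odd (orderOf g) → g ∈ A

end Cfsg.Agent.Helper25
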