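import Mathlib
import Cfsg.Agent.Helper25.Bsw2
import Cfsg.Agent.Helper3.Induced
import Cfsg.Agent.Helper3.IndFun
import Cfsg.Agent.Helper3.TIConj
import Cfsg.Agent.Helper3.Exceptional
import Cfsg.Agent.Helper4.GenChar
import Cfsg.Agent.Helper79.Basic
import Cfsg.Agent.Helper80.LinChar
import Cfsg.Agent.Helper81.AbelChar
import Cfsg.Agent.Helper29.Frobenius
import Cfsg.Agent.Helper82.ExcHom
import Cfsg.Agent.S0840

set_option autoImplicit false

/-! Character-theoretic foundation for the Brauer–Suzuki–Wall theorem: the generalized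
characters `B_λ = Ind_K^G (1 - λ)`. -/

namespace Cfsg.Agent.Helper25

open Subgroup Cfsg
open scoped ComplexConjugate

variable {G : Type*} [Group G] {t s : G} {K : Subgroup G}

/-- `B_λ = Ind_K^G (1 - λ)`. -/
noncomputable def bswB [Fintype G] (K : Subgroup G) (lam : K →* ℂˣ) : G → ℂ :=
  Cfsg.indFun K (fun x => 1 - ((lam x : ℂˣ) : ℂ))

theorem bsw_card_filter_mem [Fintype G] [DecidableEq G] (K : Subgroup G) [DecidablePred (· ∈ K)] :
    (Finset.univ.filter (fun g : G => g ∈ K)).card = Nat.card K := by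
  rw [Nat.card_eq_fintype_card, Fintype.card_subtype]

theorem bsw_card_filter_mul_mem [Fintype G] [DecidableEq G] (K : Subgroup G)
    [DecidablePred (· ∈ K)] (s : G) [DecidablePred (fun g : G => g * s ∈ K)] :
    (Finset.univ.filter (fun g : G => g * s ∈ K)).card = Nat.card K := by
  rw [← bsw_card_filter_mem K]
  apply Finset.card_nbij' (fun g => g * s) (fun g => g * s⁻¹)
  · intro g hg
    simp only [Finset.coe_filter, Finset.mem_univ, true_and, Set.mem_ofPred_eq] at hg ⊢
    exact hg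
  · intro g hg
    simp only [Finset.coe_filter, Finset.mem_univ, true_and, Set.mem_ofPred_eq] at hg ⊢
    simpa using hg
  · intro g _; simp
  · intro g _; simp

/-- Values of a function induced from `K` on `K ∖ 1`. -/
theorem bsw_ind_apply [Fintype G] (h : BswHyp t s K) (φ : K → ℂ) {x : G} (hx : x ∈ K)
    (hx1 : x ≠ 1) :
    Cfsg.indFun K φ x = φ ⟨x, hx⟩ + φ ⟨x⁻¹, K.inv_mem hx⟩ := by
  classical
  have hK0 : (Nat.card K : ℂ) ≠ 0 := by exact_mod_cast Nat.card_pos.ne'
  unfold Cfsg.indFun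
  have hterm : ∀ g : G, Cfsg.extendByZero K φ (g⁻¹ * x * g) =
      (if g ∈ K then φ ⟨x, hx⟩ else 0) + (if g * s ∈ K then φ ⟨x⁻¹, K.inv_mem hx⟩ else 0) := by
    intro g
    by_cases hgK : g ∈ K
    · have hgs : g * s ∉ K := by
        intro h'
        apply h.hsK
        have : s = g⁻¹ * (g * s) := by group
        rw [this]; exact K.mul_mem (K.inv_mem hgK) h'
      rw [if_pos hgK, if_neg hgs, add_zero]
      have e : g⁻¹ * x * g = x := by
        have := h.hKab _ hx _ hgK
        rw [mul_assoc, this]; group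
      have hm : g⁻¹ * x * g ∈ K := by rw [e]; exact hx
      rw [Cfsg.Agent.Helper3.extendByZero_of_mem _ _ hm]
      congr 1
      exact Subtype.ext e
    · by_cases hgs : g * s ∈ K
      · rw [if_neg hgK, if_pos hgs, zero_add]
        have e : g⁻¹ * x * g = x⁻¹ := by
          have e1 : g⁻¹ * x * g = s * ((g * s)⁻¹ * x * (g * s)) * s := by
            have h1 := h.s_sq
            calc g⁻¹ * x * g = 1 * g⁻¹ * x * g * 1 := by group
              _ = (s * s) * g⁻¹ * x * g * (s * s) := by rw [h1]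
              _ = s * (s⁻¹⁻¹ * g⁻¹ * x * (g * s)) * s := by rw [inv_inv]; group
              _ = s * ((g * s⁻¹)⁻¹ * x * (g * s)) * s := by group
              _ = s * ((g * s)⁻¹ * x * (g * s)) * s := by rw [h.s_inv]
          have e2 : (g * s)⁻¹ * x * (g * s) = x := by
            have := h.hKab _ hx _ hgs
            rw [mul_assoc, this]; group
          rw [e1, e2, h.hinv' hx]
        have hm : g⁻¹ * x * g ∈ K := by rw [e]; exact K.inv_mem hx
        rw [Cfsg.Agent.Helper3.extendByZero_of_mem _ _ hm]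
        congr 1
        exact Subtype.ext e
      · rw [if_neg hgK, if_neg hgs, add_zero]
        apply Cfsg.Agent.Helper3.extendByZero_of_not_mem
        intro hmem
        have := h.mem_cent_t_of_inter hx hx1 hmem
        rcases (h.mem_cent_t g).1 this with h1 | h1
        · exact hgK h1
        · exact hgs h1
  simp_rw [hterm]
  rw [Finset.sum_add_distrib, ← Finset.sum_filter, ← Finset.sum_filter, Finset.sum_const,
    Finset.sum_const, bsw_card_filter_mem, bsw_card_filter_mul_mem, nsmul_eq_mul, nsmul_eq_mul]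
  field_simp

theorem bswB_one [Fintype G] (K : Subgroup G) (lam : K →* ℂˣ) : bswB K lam 1 = 0 := by
  unfold bswB
  apply Cfsg.Agent.Helper3.indFun_apply_one_of_zero
  simp

theorem bswB_isClassFunction [Fintype G] (K : Subgroup G) (lam : K →* ℂˣ) :
    IsClassFunction G (bswB K lam) :=
  Cfsg.Agent.Helper3.indFun_isClassFunction K _

theorem bswB_vanish [Fintype G] (K : Subgroup G) (lam : K →* ℂˣ) {g : G} (hg : g ∉ bswCl K) :
    bswB K lam g = 0 := by
  unfold bswB
  apply Cfsg.Agent.Helper3.indFun_eq_zero_of_not_conj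
  intro y hy
  exact hg ⟨y, hy⟩

theorem bswB_apply [Fintype G] (h : BswHyp t s K) (lam : K →* ℂˣ) (x : K) :
    bswB K lam (x : G) = (1 - ((lam x : ℂˣ) : ℂ)) + (1 - ((lam⁻¹ x : ℂˣ) : ℂ)) := by
  by_cases hx1 : (x : G) = 1
  · have hx : x = 1 := Subtype.ext hx1
    rw [hx]
    simp [bswB_one]
  · unfold bswB
    rw [bsw_ind_apply h _ x.2 hx1]
    have e : (⟨(x : G)⁻¹, K.inv_mem x.2⟩ : K) = x⁻¹ := rfl
    rw [e]
    simp [MonoidHom.inv_apply]

theorem bswB_one_hom [Fintype G] (K : Subgroup G) : bswB K (1 : K →* ℂˣ) = 0 := by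
  unfold bswB
  funext g
  unfold Cfsg.indFun
  have h0 : (fun x : K => 1 - (((1 : K →* ℂˣ) x : ℂˣ) : ℂ)) = 0 := by funext x; simp
  rw [h0]
  have : ∀ x : G, Cfsg.extendByZero K (0 : K → ℂ) (x⁻¹ * g * x) = 0 := by
    intro x
    by_cases hm : x⁻¹ * g * x ∈ K
    · rw [Cfsg.Agent.Helper3.extendByZero_of_mem _ _ hm]; rfl
    · exact Cfsg.Agent.Helper3.extendByZero_of_not_mem _ _ hm
  rw [Finset.sum_eq_zero (fun x _ => this x), mul_zero]; rfl

theorem bswB_genChar [Fintype G] (K : Subgroup G) (lam : K →* ℂˣ) :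
    IsGeneralizedCharacter G (bswB K lam) := by
  refine ⟨Cfsg.indFun K (fun _ => (1 : ℂ)), Cfsg.indFun K (fun x => ((lam x : ℂˣ) : ℂ)),
    Cfsg.Agent.Helper3.isCharacter_indFun _ _ Cfsg.Agent.Helper79.isCharacter_one,
    Cfsg.Agent.Helper3.isCharacter_indFun _ _
      (Cfsg.Agent.Helper79.isCharacter_of_irr (Cfsg.Agent.Helper79.isIrrCharacter_of_hom lam)), ?_⟩
  rw [← Cfsg.Agent.Helper3.indFun_sub]
  rfl

theorem bswB_inv [Fintype G] (h : BswHyp t s K) (lam : K →* ℂˣ) :
    bswB K lam⁻¹ = bswB K lam := by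
  funext g
  by_cases hg : g ∈ bswCl K
  · obtain ⟨x, hx⟩ := hg
    have e1 := bswB_isClassFunction K lam g x
    have e2 := bswB_isClassFunction K lam⁻¹ g x
    rw [← e1, ← e2]
    have e3 := bswB_apply h lam ⟨_, hx⟩
    have e4 := bswB_apply h lam⁻¹ ⟨_, hx⟩
    simp only [MonoidHom.inv_apply, inv_inv] at e3 e4
    rw [e3, e4]
    ring
  · rw [bswB_vanish K _ hg, bswB_vanish K _ hg]

/-- Inner products of the `B_λ`. -/
theorem bswB_inner [Fintype G] [Fintype K] (h : BswHyp t s K) (lam mu : K →* ℂˣ)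
    (hl : lam ≠ 1) (hm : mu ≠ 1) :
    classInner (bswB K lam) (bswB K mu) =
      2 + (if lam = mu then 1 else 0) + (if lam = mu⁻¹ then 1 else 0) := by
  have hm' : mu⁻¹ ≠ 1 := by
    intro e
    apply hm
    refine MonoidHom.ext fun x => ?_
    have h2 := DFunLike.congr_fun e x
    rw [MonoidHom.inv_apply, MonoidHom.one_apply, inv_eq_one] at h2
    rw [MonoidHom.one_apply]; exact h2
  have hres : (fun x : K => bswB K mu (x : G)) =
      (fun x : K => 1 - ((mu x : ℂˣ) : ℂ)) + (fun x : K => 1 - ((mu⁻¹ x : ℂˣ) : ℂ)) := by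
    funext x
    exact bswB_apply h mu x
  have e1 : classInner (bswB K lam) (bswB K mu) =
      classInner (fun x : K => 1 - ((lam x : ℂˣ) : ℂ)) (fun x : K => bswB K mu (x : G)) :=
    Cfsg.Agent.Helper3.frobenius_reciprocity K _ _ (bswB_isClassFunction K mu)
  rw [e1, hres, Cfsg.Agent.Helper15.classInner_add_right,
    Cfsg.Agent.Helper3.classInner_one_sub_hom _ _ hl hm,
    Cfsg.Agent.Helper3.classInner_one_sub_hom _ _ hl hm']
  ring

theorem bswB_inner_one [Fintype G] (K : Subgroup G) [Fintype K] (lam : K →* ℂˣ)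
    (hl : lam ≠ 1) :
    classInner (bswB K lam) (fun _ => 1) = 1 := by
  classical
  have e1 : classInner (bswB K lam) (fun _ => 1) =
      classInner (fun x : K => 1 - ((lam x : ℂˣ) : ℂ)) (fun _ : K => (1 : ℂ)) :=
    Cfsg.Agent.Helper3.frobenius_reciprocity K _ _ (fun g h => rfl)
  rw [e1]
  unfold classInner
  have hK0 : (Nat.card K : ℂ) ≠ 0 := by exact_mod_cast Nat.card_pos.ne'
  simp only [map_one, mul_one, Finset.sum_sub_distrib, Finset.sum_const, Finset.card_univ,
    nsmul_eq_mul]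
  have ho := Cfsg.Agent.Helper80.hom_orthogonality lam (1 : K →* ℂˣ)
  rw [if_neg hl] at ho
  simp only [MonoidHom.one_apply, Units.val_one, map_one, mul_one] at ho
  rw [ho, Nat.card_eq_fintype_card]
  field_simp
  simp

theorem bsw_comm (h : BswHyp t s K) : ∀ x y : K, x * y = y * x :=
  fun x y => Subtype.ext (h.hKab x x.2 y y.2)

/-- Fourier inversion on `K`: the values of a class function on `K ∖ 1` in terms of its inner
products with the `B_λ`. -/
theorem bsw_fourier [Fintype G] [Fintype K] [Fintype (K →* ℂˣ)] (h : BswHyp t s K)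
    {χ : G → ℂ} (hχ : IsClassFunction G χ) (y : K) (hy1 : y ≠ 1) :
    χ (y : G) = - ∑ lam : K →* ℂˣ, classInner χ (bswB K lam) * ((lam y : ℂˣ) : ℂ) := by
  classical
  have hK0 : (Nat.card K : ℂ) ≠ 0 := by exact_mod_cast Nat.card_pos.ne'
  have hK0' : (Fintype.card K : ℂ) ≠ 0 := by
    rw [← Nat.card_eq_fintype_card]; exact hK0
  set f : K → ℂ := fun x => χ (x : G) with hf
  set m : (K →* ℂˣ) → ℂ := fun lam =>
    (Fintype.card K : ℂ)⁻¹ * ∑ q : K, f q * conj ((lam q : ℂˣ) : ℂ) with hm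
  have hfour := Cfsg.Agent.Helper82.excHom_fourier (bsw_comm h) f m
    (fun lam => by rw [hm]; field_simp) y
  have hd : ∀ lam : K →* ℂˣ, classInner χ (bswB K lam) = m 1 - m lam := by
    intro lam
    rw [Cfsg.Agent.Helper15.classInner_conj_symm]
    have hfr := Cfsg.Agent.Helper3.frobenius_reciprocity K
      (fun x : K => 1 - ((lam x : ℂˣ) : ℂ)) χ hχ
    unfold bswB
    rw [hfr]
    unfold classInner
    rw [hm]
    simp only [MonoidHom.one_apply, Units.val_one, map_one, mul_one]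
    rw [map_mul, map_inv₀, Complex.conj_natCast, map_sum, Nat.card_eq_fintype_card, ← mul_sub,
      ← Finset.sum_sub_distrib]
    congr 1
    apply Finset.sum_congr rfl
    intro x _
    rw [map_mul, Complex.conj_conj, map_sub, map_one]
    ring
  have hsum := Cfsg.Agent.Helper82.excHom_sum_dual (bsw_comm h) y
  rw [if_neg hy1] at hsum
  have e1 : ∑ lam : K →* ℂˣ, classInner χ (bswB K lam) * ((lam y : ℂˣ) : ℂ) =
      m 1 * ∑ lam : K →* ℂˣ, ((lam y : ℂˣ) : ℂ) - ∑ lam : K →* ℂˣ, m lam * ((lam y : ℂˣ) : ℂ) := by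
    rw [Finset.mul_sum, ← Finset.sum_sub_distrib]
    apply Finset.sum_congr rfl
    intro lam _
    rw [hd]; ring
  rw [e1, hsum, mul_zero, zero_sub, neg_neg]
  exact hfour

section V

variable [Fintype G] [Fintype (IrrCharacter G)]

/-- The integer multiplicities of the irreducible characters in `B_λ`. -/
noncomputable def bswV (K : Subgroup G) (lam : K →* ℂˣ) : IrrCharacter G → ℤ :=
  Classical.choose (Cfsg.Agent.Helper4.genChar_eq_sum (bswB_genChar K lam))

theorem bswV_spec (K : Subgroup G) (lam : K →* ℂˣ) :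
    bswB K lam = ∑ ψ : IrrCharacter G, (bswV K lam ψ : ℂ) • (ψ : G → ℂ) :=
  Classical.choose_spec (Cfsg.Agent.Helper4.genChar_eq_sum (bswB_genChar K lam))

theorem bswV_inner (K : Subgroup G) (lam : K →* ℂˣ) (χ : IrrCharacter G) :
    classInner (bswB K lam) (χ : G → ℂ) = (bswV K lam χ : ℂ) := by
  classical
  conv_lhs => rw [bswV_spec K lam]
  rw [Cfsg.Agent.Helper15.classInner_sum_left, Finset.sum_eq_single χ]
  · rw [Cfsg.Agent.Helper15.classInner_smul_left, Cfsg.Agent.Helper15.irr_inner, if_pos rfl,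
      mul_one]
  · intro ψ _ hψ
    rw [Cfsg.Agent.Helper15.classInner_smul_left, Cfsg.Agent.Helper15.irr_inner, if_neg hψ,
      mul_zero]
  · intro hh; exact absurd (Finset.mem_univ _) hh

theorem bswV_inner' (K : Subgroup G) (lam : K →* ℂˣ) (χ : IrrCharacter G) :
    classInner (χ : G → ℂ) (bswB K lam) = (bswV K lam χ : ℂ) := by
  rw [Cfsg.Agent.Helper15.classInner_conj_symm, bswV_inner, map_intCast]

theorem bswV_apply (K : Subgroup G) (lam : K →* ℂˣ) (g : G) :
    bswB K lam g = ∑ ψ : IrrCharacter G, (bswV K lam ψ : ℂ) * (ψ : G → ℂ) g := by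
  conv_lhs => rw [bswV_spec K lam]
  rw [Finset.sum_apply]
  rfl

theorem bswV_one_hom (K : Subgroup G) (χ : IrrCharacter G) : bswV K (1 : K →* ℂˣ) χ = 0 := by
  have h1 := bswV_inner K (1 : K →* ℂˣ) χ
  rw [bswB_one_hom, Cfsg.Agent.Helper15.classInner_zero_left] at h1
  exact_mod_cast h1.symm

theorem bswV_triv (K : Subgroup G) [Fintype K] {lam : K →* ℂˣ} (hl : lam ≠ 1) :
    bswV K lam (Cfsg.Agent.Helper79.trivIrr G) = 1 := by
  have h1 := bswV_inner K lam (Cfsg.Agent.Helper79.trivIrr G)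
  have h2 := bswB_inner_one K lam hl
  have h3 : ((Cfsg.Agent.Helper79.trivIrr G : IrrCharacter G) : G → ℂ) = fun _ => 1 := rfl
  rw [h3, h2] at h1
  exact_mod_cast h1.symm

theorem bswV_inv (h : BswHyp t s K) (lam : K →* ℂˣ) : bswV K lam⁻¹ = bswV K lam := by
  funext χ
  have h1 := bswV_inner K lam χ
  have h2 := bswV_inner K lam⁻¹ χ
  rw [bswB_inv h] at h2
  rw [h1] at h2
  exact_mod_cast h2.symm

theorem bswV_sum_mul [Fintype K] (h : BswHyp t s K) (lam mu : K →* ℂˣ)
    (hl : lam ≠ 1) (hm : mu ≠ 1) :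
    ∑ χ : IrrCharacter G, bswV K lam χ * bswV K mu χ =
      2 + (if lam = mu then 1 else 0) + (if lam = mu⁻¹ then 1 else 0) := by
  have h1 := bswB_inner h lam mu hl hm
  rw [bswV_spec K lam, bswV_spec K mu, Cfsg.Agent.Helper4.classInner_sum_irr] at h1
  have h2 : ((∑ χ : IrrCharacter G, bswV K lam χ * bswV K mu χ : ℤ) : ℂ) =
      ((2 + (if lam = mu then 1 else 0) + (if lam = mu⁻¹ then 1 else 0) : ℤ) : ℂ) := by
    push_cast
    rw [← h1]
    apply Finset.sum_congr rfl
    intro χ _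
    rw [map_intCast]
  exact_mod_cast h2

theorem bswV_deg (K : Subgroup G) (lam : K →* ℂˣ) :
    ∑ ψ : IrrCharacter G, (bswV K lam ψ : ℂ) * (ψ : G → ℂ) 1 = 0 := by
  rw [← bswV_apply, bswB_one]

theorem bswV_vanish (K : Subgroup G) (lam : K →* ℂˣ) {g : G} (hg : g ∉ bswCl K) :
    ∑ ψ : IrrCharacter G, (bswV K lam ψ : ℂ) * (ψ : G → ℂ) g = 0 := by
  rw [← bswV_apply, bswB_vanish K lam hg]

theorem bsw_irr_apply [Fintype K] [Fintype (K →* ℂˣ)] (h : BswHyp t s K) (χ : IrrCharacter G)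
    (y : K) (hy1 : y ≠ 1) :
    (χ : G → ℂ) (y : G) = - ∑ lam : K →* ℂˣ, (bswV K lam χ : ℂ) * ((lam y : ℂˣ) : ℂ) := by
  rw [bsw_fourier h (Cfsg.Agent.Helper79.isCharacter_isClassFunction
    (Cfsg.Agent.Helper79.irr_isCharacter χ)) y hy1]
  congr 1
  apply Finset.sum_congr rfl
  intro lam _
  rw [bswV_inner']

end V

section Count

theorem bsw_card_cent [Finite G] (h : BswHyp t s K) :
    Nat.card (centralizer ({t} : Set G)) = 2 * Nat.card K := by
  classical
  have := Fintype.ofFinite G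
  have e : Nat.card (centralizer ({t} : Set G)) =
      (Finset.univ.filter (fun g : G => g ∈ K ∨ g * s ∈ K)).card := by
    rw [Nat.card_eq_fintype_card, Fintype.card_subtype]
    congr 1
    ext g
    simp only [Finset.mem_filter, Finset.mem_univ, true_and]
    exact h.mem_cent_t g
  rw [e, Finset.filter_or, Finset.card_union_of_disjoint, bsw_card_filter_mem,
    bsw_card_filter_mul_mem]
  · ring
  · rw [Finset.disjoint_filter]
    intro g _ hg hgs
    apply h.hsK
    have : s = g⁻¹ * (g * s) := by group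
    rw [this]; exact K.mul_mem (K.inv_mem hg) hgs

theorem bsw_card_G [Finite G] (h : BswHyp t s K) :
    Nat.card {x : G // IsConj t x} * (2 * Nat.card K) = Nat.card G := by
  rw [← bsw_card_cent h]
  exact Cfsg.Agent.Helper29.card_isConj_mul_card_centralizer t

theorem bsw_isConj_iff (h : BswHyp t s K) (u : G) : IsConj t u ↔ orderOf u = 2 := by
  constructor
  · intro hc
    obtain ⟨c, hc⟩ := isConj_iff.1 hc
    rw [← hc]
    exact bsw_order_two_conj c h.ht
  · intro hu
    exact h.hconj t u h.ht hu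

theorem bswA_eq_count (h : BswHyp t s K) (g : G) :
    bswA g = Nat.card {p : G × G // IsConj t p.1 ∧ IsConj t p.2 ∧ p.1 * p.2 = g} := by
  unfold bswA
  apply Nat.card_congr
  exact Equiv.subtypeEquivRight (fun p => by rw [bsw_isConj_iff h, bsw_isConj_iff h])

theorem bswA_eq [Fintype G] [Fintype (IrrCharacter G)] (h : BswHyp t s K) (g : G) :
    (bswA g : ℂ) = (Nat.card {x : G // IsConj t x} : ℂ) / (2 * Nat.card K) *
      ∑ χ : IrrCharacter G,
        (χ : G → ℂ) t * (χ : G → ℂ) t * conj ((χ : G → ℂ) g) / (χ : G → ℂ) 1 := by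
  have h1 := Cfsg.Agent.S0840.result t t g
  rw [finsum_eq_sum_of_fintype, ← bswA_eq_count h] at h1
  rw [h1]
  congr 1
  have hG := bsw_card_G h
  have hN0 : (Nat.card {x : G // IsConj t x} : ℂ) ≠ 0 := by
    have : 0 < Nat.card {x : G // IsConj t x} := by
      rw [Nat.card_pos_iff]
      exact ⟨⟨⟨t, IsConj.refl t⟩⟩, inferInstance⟩
    exact_mod_cast this.ne'
  have hK0 : (Nat.card K : ℂ) ≠ 0 := by exact_mod_cast Nat.card_pos.ne'
  rw [← hG]
  push_cast
  field_simp

/-- The key identity coming from `a(y) = |K|` on `K ∖ 1`. -/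
theorem bsw_key [Fintype G] [Fintype K] [Fintype (IrrCharacter G)] (h : BswHyp t s K)
    {mu : K →* ℂˣ} (hm : mu ≠ 1) :
    (Nat.card {x : G // IsConj t x} : ℂ) * ∑ χ : IrrCharacter G, (bswV K mu χ : ℂ) *
        ((χ : G → ℂ) t * (χ : G → ℂ) t / (χ : G → ℂ) 1) = 2 * (Nat.card K : ℂ) ^ 2 := by
  classical
  have hk0 : (Nat.card K : ℂ) ≠ 0 := by exact_mod_cast Nat.card_pos.ne'
  set N : ℂ := (Nat.card {x : G // IsConj t x} : ℂ) with hN
  set T : G → ℂ := fun y => ∑ χ : IrrCharacter G,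
    (χ : G → ℂ) t * (χ : G → ℂ) t * conj ((χ : G → ℂ) y) / (χ : G → ℂ) 1 with hT
  have hTy : ∀ y : K, y ≠ 1 → N * T y = 2 * (Nat.card K : ℂ) ^ 2 := by
    intro y hy
    have h1 := bswA_eq h (y : G)
    rw [h.bswA_of_mem_K y.2 (fun e => hy (Subtype.ext e))] at h1
    have h2 : N * T y = 2 * (Nat.card K : ℂ) * (N / (2 * (Nat.card K : ℂ)) * T y) := by
      field_simp
    rw [h2, ← h1]; ring
  have hmu : ∑ y : K, ((mu y : ℂˣ) : ℂ) = 0 := by
    have ho := Cfsg.Agent.Helper80.hom_orthogonality mu (1 : K →* ℂˣ)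
    rw [if_neg hm] at ho
    simpa using ho
  have hsum1 : ∑ y : K, (1 - ((mu y : ℂˣ) : ℂ)) * (N * T y) = 2 * (Nat.card K : ℂ) ^ 3 := by
    have h1 : ∀ y : K, (1 - ((mu y : ℂˣ) : ℂ)) * (N * T y) =
        (1 - ((mu y : ℂˣ) : ℂ)) * (2 * (Nat.card K : ℂ) ^ 2) := by
      intro y
      by_cases hy : y = 1
      · subst hy; simp
      · rw [hTy y hy]
    rw [Finset.sum_congr rfl (fun y _ => h1 y), ← Finset.sum_mul, Finset.sum_sub_distrib, hmu,
      Finset.sum_const, Finset.card_univ, ← Nat.card_eq_fintype_card]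
    simp only [nsmul_eq_mul, mul_one, sub_zero]
    ring
  have hin : ∀ χ : IrrCharacter G, ∑ y : K, (1 - ((mu y : ℂˣ) : ℂ)) * conj ((χ : G → ℂ) y) =
      (Nat.card K : ℂ) * (bswV K mu χ : ℂ) := by
    intro χ
    have h1 := bswV_inner K mu χ
    unfold bswB at h1
    rw [Cfsg.Agent.Helper3.frobenius_reciprocity K _ _
      (Cfsg.Agent.Helper79.isCharacter_isClassFunction
        (Cfsg.Agent.Helper79.irr_isCharacter χ))] at h1
    unfold classInner at h1
    rw [← h1]
    field_simp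
  have hsum2 : ∑ y : K, (1 - ((mu y : ℂˣ) : ℂ)) * (N * T y) =
      N * (Nat.card K : ℂ) * ∑ χ : IrrCharacter G, (bswV K mu χ : ℂ) *
        ((χ : G → ℂ) t * (χ : G → ℂ) t / (χ : G → ℂ) 1) := by
    calc ∑ y : K, (1 - ((mu y : ℂˣ) : ℂ)) * (N * T y)
        = ∑ y : K, ∑ χ : IrrCharacter G, N * ((χ : G → ℂ) t * (χ : G → ℂ) t / (χ : G → ℂ) 1) *
            ((1 - ((mu y : ℂˣ) : ℂ)) * conj ((χ : G → ℂ) y)) := by
          apply Finset.sum_congr rfl
          intro y _
          rw [hT]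
          simp only
          rw [Finset.mul_sum, Finset.mul_sum]
          apply Finset.sum_congr rfl
          intro χ _
          ring
      _ = ∑ χ : IrrCharacter G, ∑ y : K,
            N * ((χ : G → ℂ) t * (χ : G → ℂ) t / (χ : G → ℂ) 1) *
            ((1 - ((mu y : ℂˣ) : ℂ)) * conj ((χ : G → ℂ) y)) := Finset.sum_comm
      _ = ∑ χ : IrrCharacter G, N * ((χ : G → ℂ) t * (χ : G → ℂ) t / (χ : G → ℂ) 1) *
            ((Nat.card K : ℂ) * (bswV K mu χ : ℂ)) := by
          apply Finset.sum_congr rfl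
          intro χ _
          rw [← Finset.mul_sum, hin]
      _ = _ := by
          rw [Finset.mul_sum]
          apply Finset.sum_congr rfl
          intro χ _
          ring
  have hfin : (Nat.card K : ℂ) * (N * ∑ χ : IrrCharacter G, (bswV K mu χ : ℂ) *
        ((χ : G → ℂ) t * (χ : G → ℂ) t / (χ : G → ℂ) 1)) =
      (Nat.card K : ℂ) * (2 * (Nat.card K : ℂ) ^ 2) := by
    linear_combination hsum1 - hsum2
  exact mul_left_cancel₀ hk0 hfin

end Count

end Cfsg.Agent.Helper25
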