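import Cfsg.Agent.Helper25.Bsw3

set_option autoImplicit false

/-! Interface definitions for the character-theoretic pieces of S3282. -/

namespace Cfsg.Agent.Helper25

open Subgroup Cfsg
open scoped ComplexConjugate

variable {G : Type*} [Group G]

/-- "Normal configuration": an irreducible character `X ≠ 1` occurring with the same
multiplicity `ε = ±1` in all the `B_λ`, `λ ≠ 1`. -/
def BswNormal [Fintype G] [Fintype (IrrCharacter G)] (K : Subgroup G) (ε : ℤ)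
    (X : IrrCharacter G) : Prop :=
  (ε = 1 ∨ ε = -1) ∧ X ≠ Cfsg.Agent.Helper79.trivIrr G ∧
    ∀ lam : K →* ℂˣ, lam ≠ 1 → bswV K lam X = ε

/-- Final structure of the exceptional characters. -/
def BswFS [Fintype G] [Fintype (IrrCharacter G)] (K : Subgroup G) [Fintype (K →* ℂˣ)] (t : G)
    (ε : ℤ) (X : IrrCharacter G) : Prop :=
  (ε = 1 ∨ ε = -1) ∧
  (∀ lam : K →* ℂˣ, lam ≠ 1 → bswV K lam X = ε) ∧
  (X : G → ℂ) 1 = 2 * (Nat.card K : ℂ) + (ε : ℂ) ∧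
  (Nat.card G : ℤ) = 2 * (Nat.card K : ℤ) * (2 * (Nat.card K : ℤ) + ε) * ((Nat.card K : ℤ) + ε) ∧
  ∀ χ : IrrCharacter G, χ ≠ Cfsg.Agent.Helper79.trivIrr G → χ ≠ X →
    (χ : G → ℂ) t * (χ : G → ℂ) t * ((Nat.card K : ℂ) + (ε : ℂ)) =
      - (ε : ℂ) * (∑ lam : K →* ℂˣ, (bswV K lam χ : ℂ)) * (χ : G → ℂ) 1

end Cfsg.Agent.Helper25
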