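import Cfsg.Agent.Helper25.Bsw4

set_option autoImplicit false

/-! Assembly lemmas for S3282. -/

namespace Cfsg.Agent.Helper25

open Subgroup Cfsg
open scoped ComplexConjugate

variable {G : Type*} [Group G] {t s : G} {K : Subgroup G}

/-- The exceptional character is constant on `K ∖ 1`. -/
theorem bsw_X_on_K [Fintype G] [Fintype K] [Fintype (K →* ℂˣ)] [Fintype (IrrCharacter G)]
    (h : BswHyp t s K) {ε : ℤ} {X : IrrCharacter G}
    (hXv : ∀ lam : K →* ℂˣ, lam ≠ 1 → bswV K lam X = ε) (y : K) (hy : y ≠ 1) :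
    (X : G → ℂ) (y : G) = (ε : ℂ) := by
  classical
  rw [bsw_irr_apply h X y hy]
  have hsum := Cfsg.Agent.Helper82.excHom_sum_dual (bsw_comm h) y
  rw [if_neg hy] at hsum
  have h1 : ∑ lam : K →* ℂˣ, ((bswV K lam X : ℂ) - (ε : ℂ)) * ((lam y : ℂˣ) : ℂ) = - (ε : ℂ) := by
    rw [Finset.sum_eq_single (1 : K →* ℂˣ)]
    · rw [bswV_one_hom]; simp
    · intro lam _ hl
      rw [hXv lam hl, sub_self, zero_mul]
    · intro hh; exact absurd (Finset.mem_univ _) hh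
  have h2 : ∑ lam : K →* ℂˣ, (bswV K lam X : ℂ) * ((lam y : ℂˣ) : ℂ) =
      ∑ lam : K →* ℂˣ, ((bswV K lam X : ℂ) - (ε : ℂ)) * ((lam y : ℂˣ) : ℂ) +
        (ε : ℂ) * ∑ lam : K →* ℂˣ, ((lam y : ℂˣ) : ℂ) := by
    rw [Finset.mul_sum, ← Finset.sum_add_distrib]
    apply Finset.sum_congr rfl
    intro lam _
    ring
  rw [h2, h1, hsum]
  ring

theorem bsw_two_dvd_card [Finite G] (h : BswHyp t s K) : 2 ∣ Nat.card K := by
  have h1 : orderOf (⟨t, h.htK⟩ : K) = 2 := by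
    rw [← h.ht]
    exact Subgroup.orderOf_mk t h.htK
  rw [← h1]
  exact orderOf_dvd_natCard _

end Cfsg.Agent.Helper25
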