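import Cfsg.Agent.Helper25.Bsw5
import Cfsg.Agent.Helper80.BswF5
import Cfsg.Agent.Helper9.BswEP
import Cfsg.Agent.Helper88.BswEMC
import Cfsg.Agent.Helper51.BswEMD
import Cfsg.Agent.Helper55.BswEMA
import Cfsg.Agent.Helper81.BswCH
import Cfsg.Agent.Helper16.BswEMB
import Cfsg.Agent.Helper2.BswAF
import Cfsg.Agent.Helper69.BswK4C
import Cfsg.Agent.Helper81.BswK4N
import Cfsg.Agent.Helper51.BswK2

set_option autoImplicit false

/-! Assembly of the abstract Brauer–Suzuki–Wall theorem (S3282) from the team's pieces. -/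

namespace Cfsg.Agent.Helper25

open Subgroup Cfsg
open scoped ComplexConjugate

variable {G : Type*} [Group G] {t s : G} {K : Subgroup G}

/-- The exceptional character structure. -/
theorem bsw_struct [Fintype G] [Fintype K] [Fintype (K →* ℂˣ)] [Fintype (IrrCharacter G)]
    (h : BswHyp t s K) : ∃ (ε : ℤ) (X : IrrCharacter G), BswFS K t ε X := by
  have h2 := bsw_two_dvd_card h
  have hpos : 0 < Nat.card K := Nat.card_pos
  by_cases hk : Nat.card K = 2
  · exact Cfsg.Agent.Helper51.bsw_struct_two h hk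
  · have hk4 : 4 ≤ Nat.card K := by
      obtain ⟨m, hm⟩ := h2
      omega
    obtain ⟨ε, X, hN⟩ := Cfsg.Agent.Helper69.bsw_normal h hk4
    exact ⟨ε, X, Cfsg.Agent.Helper81.bsw_struct_normal h hk4 ε X hN⟩

/-- The abstract Brauer–Suzuki–Wall theorem. -/
theorem bsw_main [Finite G] (h : BswHyp t s K) : BswGoal G := by
  classical
  let _ : Fintype G := Fintype.ofFinite G
  let _ : Fintype K := Fintype.ofFinite K
  have : Finite (K →* ℂˣ) := Cfsg.Agent.Helper80.finite_hom
  let _ : Fintype (K →* ℂˣ) := Fintype.ofFinite _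
  let _ : Fintype (IrrCharacter G) := Fintype.ofFinite _
  obtain ⟨ε, X, hFS⟩ := bsw_struct h
  have hF5 := Cfsg.Agent.Helper80.bsw_F5 h
  have haf := Cfsg.Agent.Helper2.bsw_a_formula h ε X hFS
  obtain ⟨hε, hXv, hX1, hG, -⟩ := hFS
  have h2 := bsw_two_dvd_card h
  have hpos : 0 < Nat.card K := Nat.card_pos
  have hk2 : 2 ≤ Nat.card K := Nat.le_of_dvd hpos h2
  obtain ⟨q, hq⟩ : ∃ q : ℕ, (q : ℤ) = 2 * (Nat.card K : ℤ) + ε := by
    refine ⟨(2 * (Nat.card K : ℤ) + ε).toNat, ?_⟩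
    rw [Int.toNat_of_nonneg]
    rcases hε with rfl | rfl <;> omega
  have hqC : (q : ℂ) = 2 * (Nat.card K : ℂ) + (ε : ℂ) := by
    have := congrArg (fun z : ℤ => (z : ℂ)) hq
    push_cast at this
    exact this
  have hcounts := Cfsg.Agent.Helper81.bsw_counts h ε hε q hq (X : G → ℂ) X.2
    (by rw [hX1, hqC])
    (fun y hy hy1 => bsw_X_on_K h hXv ⟨y, hy⟩ (fun e => hy1 (congrArg Subtype.val e)))
    (by rw [hG, hq])
    (by
      intro g hg
      rw [haf g hg, hqC]
      congr 1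
      by_cases he : ε = 1
      · rw [if_pos he, if_pos he, he]; push_cast; ring
      · rw [if_neg he, if_neg he])
  rcases hcounts with ⟨-, hplus⟩ | ⟨-, hminus⟩
  · exact Cfsg.Agent.Helper9.bsw_final_plus h hF5 q hplus
  · obtain ⟨p, hZ⟩ := Cfsg.Agent.Helper55.bsw_minus_Z h hF5 q hminus
    have hTIhyp := Cfsg.Agent.Helper51.bsw_minus_bridge h hF5 q p hminus hZ
    have : Fact p.Prime := ⟨hZ.1⟩
    have hq1 : 1 < q := by
      have := hminus.1
      omega
    exact Cfsg.Agent.Helper88.bsw_final_minus h hF5 q p hminus hZ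
      (fun P x hx hx1 => Cfsg.Agent.Helper16.bsw_sylow_TI p q hZ.2.1 hq1 hZ.2.2.2 hTIhyp P x hx hx1)

end Cfsg.Agent.Helper25
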