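import Cfsg.Agent.Helper71.McLGDefs

/-!
# PIECE N of S5075 (McLaughlin): a block with its group is a Good system
-/

set_option autoImplicit false

namespace Cfsg.Agent.Helper25.McL

open Module Cfsg.Agent.Helper71.McL

variable {p : ℕ} [Fact p.Prime] {V : Type*} [AddCommGroup V] [Module (ZMod p) V]

theorem mclN_mul_apply (g h : V ≃ₗ[ZMod p] V) (x : V) : (g * h) x = g (h x) := rfl

theorem mclN_apply_inv (g : V ≃ₗ[ZMod p] V) (x : V) : g (g⁻¹ x) = x := by
  change g (g.symm x) = x
  exact g.apply_symm_apply x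

theorem mclN_inv_apply (g : V ≃ₗ[ZMod p] V) (x : V) : g⁻¹ (g x) = x := by
  change g.symm (g x) = x
  exact g.symm_apply_apply x

theorem mclN_HW_le (H : Subgroup (V ≃ₗ[ZMod p] V)) (W : Submodule (ZMod p) V) : HW H W ≤ H := by
  unfold HW
  rw [Subgroup.closure_le]
  intro g hg
  exact hg.1

theorem mclN_HW_sub_mem (H : Subgroup (V ≃ₗ[ZMod p] V)) (W : Submodule (ZMod p) V)
    (k : V ≃ₗ[ZMod p] V) (hk : k ∈ HW H W) : ∀ x : V, k x - x ∈ W := by
  unfold HW at hk
  induction hk using Subgroup.closure_induction with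
  | mem g hg =>
    obtain ⟨_, φ, v, hv, _, hgx⟩ := hg
    intro x
    rw [hgx x, add_sub_cancel_left]
    exact W.smul_mem _ hv
  | one =>
    intro x
    simp
  | mul a b _ _ iha ihb =>
    intro x
    have h1 := iha (b x)
    have h2 := ihb x
    have : (a * b) x - x = (a (b x) - b x) + (b x - x) := by
      rw [mclN_mul_apply]; abel
    rw [this]
    exact W.add_mem h1 h2
  | inv a _ iha =>
    intro x
    have h1 := iha (a⁻¹ x)
    rw [mclN_apply_inv] at h1
    have : a⁻¹ x - x = -(x - a⁻¹ x) := by abel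
    rw [this]
    exact W.neg_mem h1

theorem mclN_gen (H : Subgroup (V ≃ₗ[ZMod p] V)) (W : Submodule (ZMod p) V)
    (g : V ≃ₗ[ZMod p] V) (hg : g ∈ H) (φ : Dual (ZMod p) V) (v : V) (hv : v ∈ W)
    (hφv : φ v = 0) (hgx : ∀ x : V, g x = x + φ x • v) : TV (HW H W) φ v :=
  ⟨hφv, g, Subgroup.subset_closure ⟨hg, φ, v, hv, hφv, hgx⟩, hgx⟩

/-- `H` normalises `HW H W` when `W` is `H`-invariant. -/
theorem mclN_conj_mem (H : Subgroup (V ≃ₗ[ZMod p] V)) (W : Submodule (ZMod p) V)
    (hW : InvG H W) (h : V ≃ₗ[ZMod p] V) (hh : h ∈ H) (k : V ≃ₗ[ZMod p] V)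
    (hk : k ∈ HW H W) : h * k * h⁻¹ ∈ HW H W := by
  unfold HW at hk ⊢
  induction hk using Subgroup.closure_induction with
  | mem g hg =>
    obtain ⟨hgH, φ, v, hv, hφv, hgx⟩ := hg
    refine Subgroup.subset_closure ⟨H.mul_mem (H.mul_mem hh hgH) (H.inv_mem hh),
      φ.comp (h⁻¹ : V ≃ₗ[ZMod p] V).toLinearMap, h v, hW h hh v hv, ?_, ?_⟩
    · simp only [LinearMap.comp_apply, LinearEquiv.coe_coe]
      rw [mclN_inv_apply]
      exact hφv
    · intro x
      simp only [LinearMap.comp_apply, LinearEquiv.coe_coe]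
      rw [mclN_mul_apply, mclN_mul_apply, hgx (h⁻¹ x), map_add, mclN_apply_inv, map_smul]
  | one =>
    simp only [mul_one, mul_inv_cancel]
    exact Subgroup.one_mem _
  | mul a b ha hb iha ihb =>
    have e : h * (a * b) * h⁻¹ = (h * a * h⁻¹) * (h * b * h⁻¹) := by group
    rw [e]
    exact Subgroup.mul_mem _ iha ihb
  | inv a ha iha =>
    have e : h * a⁻¹ * h⁻¹ = (h * a * h⁻¹)⁻¹ := by group
    rw [e]
    exact Subgroup.inv_mem _ iha


/-- A transvection `x ↦ x + φ x • v` with `v ≠ 0` which is the identity has `φ = 0`. -/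
theorem mclN_phi_zero (g : V ≃ₗ[ZMod p] V) (φ : Dual (ZMod p) V) (v : V) (hv : v ≠ 0)
    (hgx : ∀ x : V, g x = x + φ x • v) (hg1 : g = 1) : φ = 0 := by
  ext x
  have h := hgx x
  rw [hg1] at h
  have h2 : φ x • v = 0 := by
    have : (1 : V ≃ₗ[ZMod p] V) x = x := rfl
    rw [this] at h
    have h3 : x + φ x • v = x + 0 := by rw [add_zero]; exact h.symm
    exact add_left_cancel h3
  rcases smul_eq_zero.mp h2 with h3 | h3
  · simpa using h3
  · exact absurd h3 hv

theorem mclN_center_mem (H : Subgroup (V ≃ₗ[ZMod p] V)) (W : Submodule (ZMod p) V)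
    (φ : Dual (ZMod p) V) (v : V) (h : TV (HW H W) φ v) (hφ : φ ≠ 0) : v ∈ W := by
  obtain ⟨_, g, hg, hgx⟩ := h
  have hx : ∃ x, φ x ≠ 0 := by
    by_contra hcon
    push Not at hcon
    exact hφ (LinearMap.ext fun x => by simpa using hcon x)
  obtain ⟨x, hx⟩ := hx
  have h1 := mclN_HW_sub_mem H W g hg x
  rw [hgx x, add_sub_cancel_left] at h1
  have h2 := W.smul_mem (φ x)⁻¹ h1
  rwa [smul_smul, inv_mul_cancel₀ hx, one_smul] at h2

/-- There is a transvection in `HW H W` moving a vector of `W`. -/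
theorem mclN_ne_aux (H : Subgroup (V ≃ₗ[ZMod p] V)) (hH : TGen H)
    (W : Submodule (ZMod p) V) (hW1 : InvG H W) (hW2 : ¬ W ≤ FixG H) :
    ∃ (φ : Dual (ZMod p) V) (v x : V), TV (HW H W) φ v ∧ x ∈ W ∧ φ x • v ≠ 0 := by
  by_contra hcon
  push Not at hcon
  apply hW2
  have key : ∀ g ∈ Subgroup.closure {g | g ∈ H ∧ ∃ (φ : Dual (ZMod p) V) (v : V), φ v = 0 ∧
      ∀ x : V, g x = x + φ x • v}, ∀ y ∈ W, g y = y := by
    intro g hg'
    induction hg' using Subgroup.closure_induction with
    | mem a ha =>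
      obtain ⟨haH, φ, v, hφv, hax⟩ := ha
      intro y hy
      by_contra hne
      have h1 : φ y • v ≠ 0 := by
        intro h0
        apply hne
        rw [hax y, h0, add_zero]
      have hφy : φ y ≠ 0 := by
        intro h0
        apply h1
        rw [h0, zero_smul]
      have hvW : v ∈ W := by
        have h2 : a y - y ∈ W := W.sub_mem (hW1 a haH y hy) hy
        rw [hax y, add_sub_cancel_left] at h2
        have h3 := W.smul_mem (φ y)⁻¹ h2
        rwa [smul_smul, inv_mul_cancel₀ hφy, one_smul] at h3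
      exact h1 (hcon φ v y (mclN_gen H W a haH φ v hvW hφv hax) hy)
    | one =>
      intro y _
      rfl
    | mul a b _ _ iha ihb =>
      intro y hy
      rw [mclN_mul_apply, ihb y hy, iha y hy]
    | inv a _ iha =>
      intro y hy
      have h1 := iha y hy
      calc a⁻¹ y = a⁻¹ (a y) := by rw [h1]
        _ = y := mclN_inv_apply a y
  intro x hx
  rw [mem_FixG]
  intro g hg
  exact key g (hH.le hg) x hx


/-- A subspace of `W` invariant under the transvections of `HW H W` is `H`-invariant. -/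
theorem mclN_inv_of_sinv (H : Subgroup (V ≃ₗ[ZMod p] V)) (hH : TGen H)
    (W : Submodule (ZMod p) V) (hW1 : InvG H W) (U : Submodule (ZMod p) V) (hUW : U ≤ W)
    (hU : ∀ (φ : Dual (ZMod p) V) (v : V), TV (HW H W) φ v → ∀ x ∈ U, x + φ x • v ∈ U) :
    InvG H U := by
  have key : ∀ g ∈ Subgroup.closure {g | g ∈ H ∧ ∃ (φ : Dual (ZMod p) V) (v : V), φ v = 0 ∧
      ∀ x : V, g x = x + φ x • v}, (∀ y ∈ U, g y ∈ U) ∧ (∀ y ∈ U, g⁻¹ y ∈ U) := by
    intro g hg'
    induction hg' using Subgroup.closure_induction with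
    | mem a ha =>
      obtain ⟨haH, φ, v, hφv, hax⟩ := ha
      have hinv : ∀ y : V, a⁻¹ y = y + (-φ) y • v := by
        intro y
        have h1 : a (y + (-φ) y • v) = y := by
          rw [hax, map_add, map_smul, hφv]
          simp
        calc a⁻¹ y = a⁻¹ (a (y + (-φ) y • v)) := by rw [h1]
          _ = y + (-φ) y • v := mclN_inv_apply a _
      by_cases hvW : v ∈ W
      · have hT : TV (HW H W) φ v := mclN_gen H W a haH φ v hvW hφv hax
        have hT' : TV (HW H W) (-φ) v := by
          refine ⟨by simp [hφv], a⁻¹, Subgroup.inv_mem _ hT.2.choose_spec.1 |> fun h => ?_, hinv⟩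
          have : hT.2.choose = a := by
            ext x
            rw [hT.2.choose_spec.2 x, hax x]
          rwa [this] at h
        refine ⟨fun y hy => ?_, fun y hy => ?_⟩
        · rw [hax y]
          exact hU φ v hT y hy
        · rw [hinv y]
          exact hU (-φ) v hT' y hy
      · have hz : ∀ y ∈ U, φ y = 0 := by
          intro y hy
          by_contra hφy
          apply hvW
          have h2 : a y - y ∈ W := W.sub_mem (hW1 a haH y (hUW hy)) (hUW hy)
          rw [hax y, add_sub_cancel_left] at h2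
          have h3 := W.smul_mem (φ y)⁻¹ h2
          rwa [smul_smul, inv_mul_cancel₀ hφy, one_smul] at h3
        refine ⟨fun y hy => ?_, fun y hy => ?_⟩
        · rw [hax y, hz y hy, zero_smul, add_zero]
          exact hy
        · rw [hinv y]
          simp only [LinearMap.neg_apply, hz y hy, neg_zero, zero_smul, add_zero]
          exact hy
    | one =>
      refine ⟨fun y hy => hy, fun y hy => ?_⟩
      rw [inv_one]
      exact hy
    | mul a b _ _ iha ihb =>
      refine ⟨fun y hy => ?_, fun y hy => ?_⟩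
      · rw [mclN_mul_apply]
        exact iha.1 _ (ihb.1 y hy)
      · rw [mul_inv_rev, mclN_mul_apply]
        exact ihb.2 _ (iha.2 y hy)
    | inv a _ iha =>
      refine ⟨fun y hy => iha.2 y hy, fun y hy => ?_⟩
      rw [inv_inv]
      exact iha.1 y hy
  intro g hg y hy
  exact (key g (hH.le hg)).1 y hy

/-- PIECE N: a block with its group is a Good system. -/
theorem block_good [Finite V] (H : Subgroup (V ≃ₗ[ZMod p] V)) (hH : TGen H)
    (hunip : ∀ U : Submodule (ZMod p) V, InvG H U → ∀ g ∈ H, (∀ x : V, g x - x ∈ U) →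
      (∀ x ∈ U, g x = x) → g = 1)
    (W : Submodule (ZMod p) V) (hW : IsBlock H W) (S : TSys (ZMod p) V)
    (hS : ∀ (φ : Dual (ZMod p) V) (v : V), S.Θ φ v ↔ TV (HW H W) φ v) : S.Good W := by
  obtain ⟨hW1, hW2, hW3⟩ := hW
  have hHW := mclN_HW_le H W
  -- `ne` with a witness
  obtain ⟨φ0, v0, x0, hT0, hx0, hne0⟩ := mclN_ne_aux H hH W hW1 hW2
  have hcm : ∀ (φ : Dual (ZMod p) V) (v : V), S.Θ φ v → φ ≠ 0 → v ≠ 0 → v ∈ W :=
    fun φ v h hφ _ => mclN_center_mem H W φ v ((hS φ v).mp h) hφ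
  -- `S.Fix` contains `FixG H`
  have hfixle : ∀ x : V, x ∈ FixG H → x ∈ S.Fix := by
    intro x hx
    rw [TSys.mem_Fix]
    intro φ v h
    obtain ⟨_, g, hg, hgx⟩ := (hS φ v).mp h
    have h1 := hx g (hHW hg)
    rw [hgx x] at h1
    have h3 : x + φ x • v = x + 0 := by rw [add_zero]; exact h1
    exact add_left_cancel h3
  -- `S.Fix` is `H`-invariant
  have hfixinv : ∀ h ∈ H, ∀ y ∈ S.Fix, h y ∈ S.Fix := by
    intro h hh y hy
    rw [TSys.mem_Fix] at hy ⊢
    intro φ' v' hΘ
    obtain ⟨hφv', k, hk, hkx⟩ := (hS φ' v').mp hΘ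
    have hconj := mclN_conj_mem H W hW1 h⁻¹ (H.inv_mem hh) k hk
    rw [inv_inv] at hconj
    have hT : TV (HW H W) (φ'.comp (h : V ≃ₗ[ZMod p] V).toLinearMap) (h⁻¹ v') := by
      refine ⟨?_, h⁻¹ * k * h, hconj, ?_⟩
      · simp only [LinearMap.comp_apply, LinearEquiv.coe_coe]
        rw [mclN_apply_inv]
        exact hφv'
      · intro x
        simp only [LinearMap.comp_apply, LinearEquiv.coe_coe]
        rw [mclN_mul_apply, mclN_mul_apply, hkx (h x), map_add, mclN_inv_apply, map_smul]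
    have h1 := hy _ _ ((hS _ _).mpr hT)
    simp only [LinearMap.comp_apply, LinearEquiv.coe_coe] at h1
    have h2 : h (φ' (h y) • h⁻¹ v') = 0 := by rw [h1, map_zero]
    rwa [map_smul, mclN_apply_inv] at h2
  refine ⟨hcm, ?_, ?_, ?_, ?_⟩
  · -- not_type2
    intro φ v h hφ hv
    by_contra hcon
    push Not at hcon
    obtain ⟨hφv, g, hg, hgx⟩ := (hS φ v).mp h
    have hg1 : g = 1 := by
      refine hunip W hW1 g (hHW hg) (mclN_HW_sub_mem H W g hg) ?_
      intro x hx
      rw [hgx x, hcon x hx, zero_smul, add_zero]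
    exact hφ (mclN_phi_zero g φ v hv hgx hg1)
  · -- min
    intro U hUW hU
    have hInv : InvG H U := by
      refine mclN_inv_of_sinv H hH W hW1 U hUW ?_
      intro φ v hT x hx
      exact hU φ v ((hS φ v).mpr hT) x hx
    rcases hW3 U hUW hInv with h | h
    · exact Or.inl h
    · exact Or.inr fun x hx => hfixle x (h hx)
  · -- nc
    intro φ v h hφ hv hvfix
    have hvW : v ∈ W := hcm φ v h hφ hv
    have hInv : InvG H (W ⊓ S.Fix) := by
      intro g hg x hx
      exact ⟨hW1 g hg x hx.1, hfixinv g hg x hx.2⟩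
    rcases hW3 (W ⊓ S.Fix) inf_le_left hInv with h1 | h1
    · have hx0fix : x0 ∈ S.Fix := by
        have : x0 ∈ W ⊓ S.Fix := by rw [h1]; exact hx0
        exact this.2
      rw [TSys.mem_Fix] at hx0fix
      exact hne0 (hx0fix φ0 v0 ((hS φ0 v0).mpr hT0))
    · have hvF : v ∈ FixG H := h1 ⟨hvW, hvfix⟩
      obtain ⟨hφv, g, hg, hgx⟩ := (hS φ v).mp h
      have hspan : InvG H (Submodule.span (ZMod p) {v}) := by
        intro k hk x hx
        rw [Submodule.mem_span_singleton] at hx ⊢
        obtain ⟨c, rfl⟩ := hx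
        exact ⟨c, by rw [map_smul, hvF k hk]⟩
      have hg1 : g = 1 := by
        refine hunip _ hspan g (hHW hg) ?_ ?_
        · intro x
          rw [hgx x, add_sub_cancel_left]
          exact Submodule.smul_mem _ _ (Submodule.mem_span_singleton_self v)
        · intro x hx
          rw [Submodule.mem_span_singleton] at hx
          obtain ⟨c, rfl⟩ := hx
          rw [hgx, map_smul, hφv, smul_zero, zero_smul, add_zero]
      exact hφ (mclN_phi_zero g φ v hv hgx hg1)
  · -- ne
    refine ⟨φ0, v0, (hS φ0 v0).mpr hT0, ?_, ?_⟩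
    · intro h0
      apply hne0
      rw [h0]
      simp
    · intro h0
      apply hne0
      rw [h0, smul_zero]

end Cfsg.Agent.Helper25.McL
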