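import Mathlib

set_option autoImplicit false
set_option linter.unusedVariables false
set_option linter.style.haveILetI false

/-!
PIECE B of helper95's S4346 ("22 is never the number of Sylow 3-subgroups"):
pure counting on a transitive 22-point line geometry.
-/

namespace Cfsg.Agent.Helper25

theorem ps22_dvd_card_of_fibers {α β : Type*} [DecidableEq β] (s : Finset α) (f : α → β) (n : ℕ)
    (h : ∀ x ∈ s, (s.filter (fun y => f y = f x)).card = n) : n ∣ s.card := by
  rw [Finset.card_eq_sum_card_image f s]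
  apply Finset.dvd_sum
  intro b hb
  obtain ⟨x, hx, rfl⟩ := Finset.mem_image.mp hb
  rw [h x hx]

theorem ps22_geom_count {Γ : Type*} [Group Γ] {Ω : Type*} [MulAction Γ Ω] [Finite Ω]
    [MulAction.IsPretransitive Γ Ω] (hΩ : Nat.card Ω = 22)
    (adj : Ω → Ω → Prop) (line : Ω → Ω → Set Ω)
    (hsymm : ∀ γ δ, adj γ δ → adj δ γ)
    (hirr : ∀ γ, ¬ adj γ γ)
    (hmem : ∀ γ δ, adj γ δ → γ ∈ line γ δ ∧ δ ∈ line γ δ)
    (hcomm : ∀ γ δ, adj γ δ → line γ δ = line δ γ)
    (hline : ∀ γ δ ε, adj γ δ → ε ∈ line γ δ → ε ≠ γ → adj γ ε ∧ line γ ε = line γ δ)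
    (hmod : ∀ γ δ, adj γ δ → (line γ δ).ncard % 3 = 1)
    (hge : ∀ γ δ, adj γ δ → 4 ≤ (line γ δ).ncard)
    (hle : ∀ γ δ, adj γ δ → (line γ δ).ncard ≤ 21)
    (hadj_smul : ∀ (g : Γ) (γ δ : Ω), adj γ δ → adj (g • γ) (g • δ))
    (hline_smul : ∀ (g : Γ) (γ δ : Ω), adj γ δ →
      line (g • γ) (g • δ) = (fun ω => g • ω) '' line γ δ)
    (hdeg : ∀ γ, {δ | adj γ δ}.ncard = 3 ∨ {δ | adj γ δ}.ncard = 12 ∨
      {δ | adj γ δ}.ncard = 21) :
    (∀ γ, {δ | adj γ δ}.ncard = 12) ∧ ∀ γ δ, adj γ δ → (line γ δ).ncard = 4 := by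
  classical
  haveI : Fintype Ω := Fintype.ofFinite Ω
  have hcard : Fintype.card Ω = 22 := by rw [← Nat.card_eq_fintype_card]; exact hΩ
  -- L5
  have L5 : ∀ γ δ ε ζ, adj γ δ → ε ∈ line γ δ → ζ ∈ line γ δ → ε ≠ ζ →
      adj ε ζ ∧ line ε ζ = line γ δ := by
    intro γ δ ε ζ hgd he hz hne
    by_cases heg : ε = γ
    · subst heg
      exact hline ε δ ζ hgd hz (Ne.symm hne)
    · obtain ⟨h1, h2⟩ := hline γ δ ε hgd he heg
      have h3 : line ε γ = line γ δ := by rw [← hcomm γ ε h1, h2]
      have h4 := hline ε γ ζ (hsymm _ _ h1) (by rw [h3]; exact hz) (Ne.symm hne)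
      exact ⟨h4.1, h4.2.trans h3⟩
  have hPsmul : ∀ k (g : Γ) a d, (adj a d ∧ (line a d).ncard = k) →
      (adj (g • a) (g • d) ∧ (line (g • a) (g • d)).ncard = k) := by
    intro k g a d ⟨h1, h2⟩
    refine ⟨hadj_smul g a d h1, ?_⟩
    rw [hline_smul g a d h1, Set.ncard_image_of_injective _ (MulAction.injective g)]
    exact h2
  have hc0 : ∀ k (g : Γ) a,
      (Finset.univ.filter (fun d => adj (g • a) d ∧ (line (g • a) d).ncard = k)).card =
      (Finset.univ.filter (fun d => adj a d ∧ (line a d).ncard = k)).card := by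
    intro k g a
    symm
    apply Finset.card_nbij' (fun d => g • d) (fun d => g⁻¹ • d)
    · intro d hd
      simp only [Finset.coe_filter, Finset.mem_univ, true_and, Set.mem_ofPred_eq] at hd ⊢
      exact hPsmul k g a d hd
    · intro d hd
      simp only [Finset.coe_filter, Finset.mem_univ, true_and, Set.mem_ofPred_eq] at hd ⊢
      have := hPsmul k g⁻¹ (g • a) d hd
      rwa [inv_smul_smul] at this
    · intro d _; simp
    · intro d _; simp
  have hc1 : ∀ k a b,
      (Finset.univ.filter (fun d => adj a d ∧ (line a d).ncard = k)).card =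
      (Finset.univ.filter (fun d => adj b d ∧ (line b d).ncard = k)).card := by
    intro k a b
    obtain ⟨g, rfl⟩ := MulAction.exists_smul_eq Γ a b
    exact (hc0 k g a).symm
  have hlF : ∀ a d, (line a d).ncard = (Finset.univ.filter (fun x => x ∈ line a d)).card := by
    intro a d
    rw [← Set.ncard_coe_finset]; congr 1; ext x; simp
  have hC2 : ∀ k a, (k - 1) ∣
      (Finset.univ.filter (fun d => adj a d ∧ (line a d).ncard = k)).card := by
    intro k a
    apply ps22_dvd_card_of_fibers _ (fun d => line a d)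
    intro x hx
    have hx' : adj a x ∧ (line a x).ncard = k := by simpa using hx
    have : (Finset.univ.filter (fun d => adj a d ∧ (line a d).ncard = k)).filter
        (fun y => line a y = line a x) =
        (Finset.univ.filter (fun y => y ∈ line a x)).erase a := by
      ext y
      simp only [Finset.mem_filter, Finset.mem_univ, true_and, Finset.mem_erase]
      constructor
      · rintro ⟨⟨h1, h2⟩, h3⟩
        refine ⟨?_, ?_⟩
        · rintro rfl; exact hirr _ h1
        · rw [← h3]; exact (hmem a y h1).2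
      · rintro ⟨h1, h2⟩
        obtain ⟨h3, h4⟩ := hline a x y hx'.1 h2 h1
        exact ⟨⟨h3, by rw [h4]; exact hx'.2⟩, h4⟩
    rw [this, Finset.card_erase_of_mem (by simpa using (hmem a x hx'.1).1), ← hlF, hx'.2]
  have hT : ∀ k a, ((Finset.univ : Finset (Ω × Ω)).filter
      (fun p => adj p.1 p.2 ∧ (line p.1 p.2).ncard = k)).card =
      22 * (Finset.univ.filter (fun d => adj a d ∧ (line a d).ncard = k)).card := by
    intro k a
    rw [Finset.card_filter, Fintype.sum_prod_type]
    have : ∀ γ, (∑ δ, if (adj γ δ ∧ (line γ δ).ncard = k) then 1 else 0) =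
        (Finset.univ.filter (fun d => adj a d ∧ (line a d).ncard = k)).card := by
      intro γ; rw [← Finset.card_filter]; exact hc1 k γ a
    simp only [this]
    rw [Finset.sum_const, Finset.card_univ, hcard, smul_eq_mul]
  have hC1 : ∀ k a, (k * k - k) ∣
      22 * (Finset.univ.filter (fun d => adj a d ∧ (line a d).ncard = k)).card := by
    intro k a
    rw [← hT k a]
    apply ps22_dvd_card_of_fibers _ (fun p : Ω × Ω => line p.1 p.2)
    rintro ⟨γ, δ⟩ hx
    have hx' : adj γ δ ∧ (line γ δ).ncard = k := by simpa using hx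
    have : ((Finset.univ : Finset (Ω × Ω)).filter
        (fun p => adj p.1 p.2 ∧ (line p.1 p.2).ncard = k)).filter
        (fun p => line p.1 p.2 = line γ δ) =
        (Finset.univ.filter (fun y => y ∈ line γ δ)).offDiag := by
      ext ⟨e, z⟩
      simp only [Finset.mem_filter, Finset.mem_univ, true_and, Finset.mem_offDiag]
      constructor
      · rintro ⟨⟨h1, h2⟩, h3⟩
        refine ⟨?_, ?_, ?_⟩
        · rw [← h3]; exact (hmem e z h1).1
        · rw [← h3]; exact (hmem e z h1).2
        · rintro rfl; exact hirr _ h1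
      · rintro ⟨h1, h2, h3⟩
        obtain ⟨h4, h5⟩ := L5 γ δ e z hx'.1 h1 h2 h3
        exact ⟨⟨h4, by rw [h5]; exact hx'.2⟩, h5⟩
    rw [this, Finset.offDiag_card, ← hlF, hx'.2]
  have hdegF : ∀ γ, {δ | adj γ δ}.ncard = (Finset.univ.filter (adj γ)).card := by
    intro γ; rw [← Set.ncard_coe_finset]; congr 1; ext x; simp
  have hfour : ∀ γ δ, adj γ δ → (line γ δ).ncard = 4 := by
    intro γ δ h
    have h1 := hmod γ δ h
    have h2 := hge γ δ h
    have h3 := hle γ δ h
    obtain ⟨k, hk⟩ : ∃ k, k = (line γ δ).ncard := ⟨_, rfl⟩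
    rw [← hk] at h1 h2 h3 ⊢
    have hpos : 1 ≤ (Finset.univ.filter (fun d => adj γ d ∧ (line γ d).ncard = k)).card := by
      apply Finset.card_pos.mpr
      exact ⟨δ, by simpa using ⟨h, hk.symm⟩⟩
    have hle21 : (Finset.univ.filter (fun d => adj γ d ∧ (line γ d).ncard = k)).card ≤ 21 := by
      have : (Finset.univ.filter (fun d => adj γ d ∧ (line γ d).ncard = k)).card ≤
          (Finset.univ.filter (adj γ)).card := by
        apply Finset.card_le_card
        intro d hd
        simp only [Finset.mem_filter, Finset.mem_univ, true_and] at hd ⊢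
        exact hd.1
      have h' := hdeg γ
      rw [hdegF] at h'
      omega
    have d1 := hC2 k γ
    have d2 := hC1 k γ
    generalize (Finset.univ.filter (fun d => adj γ d ∧ (line γ d).ncard = k)).card = c
      at hpos hle21 d1 d2
    interval_cases k <;> simp only [Nat.reduceSub, Nat.reduceMul] at d1 d2 <;> omega
  refine ⟨?_, hfour⟩
  intro γ
  have h4 : (Finset.univ.filter (fun d => adj γ d ∧ (line γ d).ncard = 4)).card =
      (Finset.univ.filter (adj γ)).card := by
    congr 1; ext d
    simp only [Finset.mem_filter, Finset.mem_univ, true_and]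
    exact ⟨fun h => h.1, fun h => ⟨h, hfour γ d h⟩⟩
  have d2 := hC1 4 γ
  have h' := hdeg γ
  rw [hdegF] at h' ⊢
  rw [h4] at d2
  simp only [Nat.reduceSub, Nat.reduceMul] at d2
  omega

end Cfsg.Agent.Helper25
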